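import Groth.Agent.Lefx.H80.Sheafify
import Groth.Agent.Pi1C.GrCone

/-!
# Chart translation (for S3381)

From graded modules `M n` over the cone ring with dehomogenization maps `δ n i : M n →+ Γ(G n, U i)` and a graded
presentation, uniform in `n` up to `x_0^(n+1)`, to a coherent module (`exists_of_graded`).

Author: helper80
-/

set_option autoImplicit false
universe u

open CategoryTheory CategoryTheory.Limits AlgebraicGeometry TopologicalSpace Opposite

namespace Groth.Agent.Lefx.H80.ChartTr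

open Groth.Agent Groth.Agent.Fdesc.LocGen Groth.Agent.FormalB.KQuot
  Groth.Agent.VarietyB.ProjGlue Groth.Agent.Lefx.H80.Sheafify
open Pi1C Pi1C.TwistSec Pi1C.GrSec Pi1C.GrCone LaurentPolynomial

section Ev

variable {A : Type u} [CommRing A]

/-- Evaluation at `T = 1`. -/
noncomputable def ev1 : LaurentPolynomial A →+* A := LaurentPolynomial.eval₂ (RingHom.id A) 1

lemma ev1_C_mul_T (a : A) (n : ℤ) : ev1 (C a * T n) = a := by
  rw [ev1, eval₂_C_mul_T, one_zpow, Units.val_one, mul_one, RingHom.id_apply]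

lemma ev1_C (a : A) : ev1 (C a) = a := by
  have := ev1_C_mul_T a 0
  rwa [T_zero, mul_one] at this

lemma ev1_T (n : ℤ) : ev1 (T n : LaurentPolynomial A) = 1 := by
  have := ev1_C_mul_T (1 : A) n
  rwa [map_one, one_mul] at this

end Ev

variable {X : Scheme.{u}} {r : ℕ} (D : CoordData X (Fin (r + 1))) {k : Type u} [Field k]
  (p : X ⟶ Spec (CommRingCat.of k))

/-- Dehomogenization. -/
noncomputable def dh (i : Fin (r + 1)) : Cone.R D p →+* Γ(X, D.U i) := ev1.comp (Cone.chart D p i)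

lemma dh_x (i j : Fin (r + 1)) : dh D p i (Cone.x D p j) = D.f i j := by
  change ev1 (Cone.chart D p i _) = _
  rw [Cone.chart_x, map_mul, ev1_T, ev1_C, one_mul]

lemma dh_x_self (i : Fin (r + 1)) : dh D p i (Cone.x D p i) = 1 := by
  rw [dh_x, D.f_self]

/-- `t` is homogeneous of degree `m`. -/
def IsHom (m : ℤ) (t : Cone.R D p) : Prop := toM D p t = hom D m (toM D p t m)

variable {D p}

lemma IsHom.dh_eq {m : ℤ} {t : Cone.R D p} (h : IsHom D p m t) (i : Fin (r + 1)) :
    dh D p i t = (toM D p t m).1 i := by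
  change ev1 (Cone.chart D p i t) = _
  rw [← chart_toM, h, chart_hom, ev1_C_mul_T, ← h]

lemma IsHom.eq_zero {m : ℤ} {t : Cone.R D p} (h : IsHom D p m t) (hm : m < 0) : t = 0 := by
  apply toM_injective D p
  rw [h, toM_apply D p t m hm, map_zero, map_zero]

lemma isHom_tr {m : ℕ} {t : Cone.R D p} (h : IsHom D p m t) (i j : Fin (r + 1)) :
    ores inf_le_left (dh D p i t) = tr D i j ^ m * ores inf_le_right (dh D p j t) := by
  rw [h.dh_eq, h.dh_eq]
  have h1 := (toM D p t m).2 i j
  rw [zpow_natCast, Units.val_pow_eq_pow_val, u_val] at h1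
  exact h1

/-- The transition rule of a matrix entry of degree `e - d`. -/
lemma isHom_tr' {d e : ℕ} {t : Cone.R D p} (h : IsHom D p ((e : ℤ) - d) t) (i j : Fin (r + 1)) :
    tr D i j ^ d * ores inf_le_left (dh D p i t) = tr D i j ^ e * ores inf_le_right (dh D p j t) := by
  rcases lt_or_ge e d with hed | hed
  · rw [h.eq_zero (by omega)]
    simp only [map_zero, mul_zero]
  · have h2 : ((e : ℤ) - d) = ((e - d : ℕ) : ℤ) := by omega
    rw [h2] at h
    rw [isHom_tr h, ← mul_assoc, ← pow_add, Nat.add_sub_cancel' hed]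

lemma isHom_mk {F : MvPolynomial (Fin (r + 1)) k} {n : ℕ} (hF : F.IsHomogeneous n) :
    IsHom D p n (Ideal.Quotient.mk (Cone.J D p) F) := by
  change polyM D p F = hom D n (polyM D p F n)
  apply ext_M
  intro a i
  rw [hom_apply]
  split_ifs with h
  · subst h; rfl
  · rw [polyM_of_isHomogeneous D p hF a (fun h' => h h'.symm)]; rfl

lemma dh_mk (i : Fin (r + 1)) (F : MvPolynomial (Fin (r + 1)) k) :
    dh D p i (Ideal.Quotient.mk (Cone.J D p) F) = D.hom p i F := by
  change ev1 (Cone.chart D p i _) = _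
  rw [Cone.chart_mk, Cone.rho_eq_sum, map_sum]
  simp only [ev1_C_mul_T]
  rw [← map_sum, MvPolynomial.sum_homogeneousComponent]

lemma isHom_mul {a b : ℤ} {s t : Cone.R D p} (hs : IsHom D p a s) (ht : IsHom D p b t) :
    IsHom D p (a + b) (s * t) := by
  unfold IsHom at hs ht ⊢
  have h1 : toM D p (s * t) = hom D (a + b) ⟨(toM D p s a).1 * (toM D p t b).1,
      mul_mem D (toM D p s a).2 (toM D p t b).2⟩ := by
    rw [map_mul, hs, ht, hom_mul_hom, ← hs, ← ht]
  rw [h1]
  congr 1
  apply Subtype.ext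
  funext i
  rw [hom_apply, if_pos rfl]

variable (D p) in
lemma isHom_x (i : Fin (r + 1)) : IsHom D p 1 (Cone.x D p i) := by
  have := isHom_mk (D := D) (p := p) (MvPolynomial.isHomogeneous_X k i)
  rwa [Nat.cast_one] at this

variable (D p) in
lemma isHom_x_pow (i : Fin (r + 1)) (m : ℕ) : IsHom D p m (Cone.x D p i ^ m) := by
  have := isHom_mk (D := D) (p := p) (MvPolynomial.isHomogeneous_X_pow (R := k) i m)
  rwa [map_pow] at this

/-- Comparison with component projections of the cone ring. -/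
lemma isHom_iff {cA : ℤ → Cone.R D p → Cone.R D p}
    (hcA : ∀ a t, toM D p (cA a t) = hom D a (toM D p t a)) {a : ℤ} {t : Cone.R D p} :
    IsHom D p a t ↔ cA a t = t :=
  ⟨fun h => toM_injective D p (by rw [hcA]; exact h.symm), fun h => by
    have h1 := hcA a t
    rw [h] at h1
    exact h1⟩

/-- Homogeneous lifts of functions on a chart. -/
theorem exists_lift (hs : ∀ i, Function.Surjective (D.hom p i)) (i : Fin (r + 1)) (a : Γ(X, D.U i)) :
    ∃ N₀ : ℕ, ∀ N, N₀ ≤ N → ∃ t : Cone.R D p, IsHom D p (N : ℤ) t ∧ dh D p i t = a := by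
  obtain ⟨F, rfl⟩ := hs i a
  refine ⟨F.totalDegree, fun N hN => ?_⟩
  refine ⟨Ideal.Quotient.mk (Cone.J D p) (∑ m ∈ Finset.range (F.totalDegree + 1),
    MvPolynomial.X i ^ (N - m) * MvPolynomial.homogeneousComponent m F), isHom_mk ?_, ?_⟩
  · refine MvPolynomial.IsHomogeneous.sum _ _ _ fun m hm => ?_
    have h1 := (MvPolynomial.isHomogeneous_X_pow (R := k) i (N - m)).mul
      (MvPolynomial.homogeneousComponent_isHomogeneous m F)
    rwa [Nat.sub_add_cancel (by have := Finset.mem_range.1 hm; omega)] at h1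
  · rw [dh_mk, map_sum]
    conv_rhs => rw [← MvPolynomial.sum_homogeneousComponent F, map_sum]
    refine Finset.sum_congr rfl fun m _ => ?_
    rw [map_mul, map_pow, CoordData.hom_X, D.f_self, one_pow, one_mul]

section Main

variable (D p)

/-- **Chart translation.** -/
theorem exists_of_graded (hU : ∀ i, IsAffineOpen (D.U i)) [∀ i, QuasiCompact (D.U i).ι]
    (hs : ∀ i, Function.Surjective (D.hom p i))
    (G : ℕ → X.Modules) (hG : ∀ n, Coh.IsQCoh (G n))
    (hK : ∀ n, ClSub.KilledByIdeal (Pi1C.LefSetup.hyper D hU 0 ^ (n + 1)) (G n))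
    (t : ∀ n, G (n + 1) ⟶ G n)
    (M : ℕ → Type*) [∀ n, AddCommGroup (M n)] [∀ n, Module (Cone.R D p) (M n)]
    (π : ∀ n, M (n + 1) → M n) (cM : ∀ n, ℤ → M n → M n)
    (hcM_add : ∀ n a z w, cM n a z = z → cM n a w = w → cM n a (z + w) = z + w)
    (hcM_zero : ∀ n a, cM n a 0 = 0)
    (hcM : ∀ n a b (s : Cone.R D p) z, IsHom D p a s → cM n b z = z → cM n (a + b) (s • z) = s • z)
    (δ : ∀ n i, M n →+ Γ(G n, D.U i))
    (hδ : ∀ n i (a : Cone.R D p) z, δ n i (a • z) = dh D p i a • δ n i z)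
    (hδπ : ∀ n i z, (t n).app (D.U i) (δ (n + 1) i z) = δ n i (π n z))
    (hδs : ∀ n i, Function.Surjective (δ n i))
    (hδ0 : ∀ n i a z, cM n a z = z → δ n i z = 0 → ∃ m : ℕ, Cone.x D p i ^ m • z = 0)
    (hδtr : ∀ n (a : ℕ) z, cM n a z = z → ∀ i j,
      res (G n) inf_le_left (δ n i z) = tr D i j ^ a • res (G n) inf_le_right (δ n j z))
    (q q' : ℕ) (d : Fin q → ℕ) (e : Fin q' → ℕ) (β : Fin q → ∀ n, M n)
    (hβπ : ∀ j n, π n (β j (n + 1)) = β j n) (hβc : ∀ j n, cM n (d j) (β j n) = β j n)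
    (K : Fin q' → Fin q → Cone.R D p) (hKc : ∀ l j, IsHom D p ((e l : ℤ) - d j) (K l j))
    (hrel : ∀ n l, ∑ j, K l j • β j n = 0)
    (hgen : ∀ n i (z : M n), ∃ (m : ℕ) (a : Fin q → Cone.R D p), Cone.x D p i ^ m • z = ∑ j, a j • β j n)
    (hker : ∀ n i (N : ℕ) (a : Fin q → Cone.R D p), (∀ j, IsHom D p ((N : ℤ) - d j) (a j)) →
      ∑ j, a j • β j n = 0 → ∃ (m : ℕ) (c : Fin q' → Cone.R D p) (a' : Fin q → Cone.R D p),
        ∀ j, Cone.x D p i ^ m * a j = ∑ l, c l * K l j + Cone.x D p 0 ^ (n + 1) * a' j) :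
    ∃ (E : X.Modules) (P : ∀ n, E ⟶ G n), Coh.IsCoh E ∧ (∀ n, P (n + 1) ≫ t n = P n) ∧
      ∀ n, IsKQuot (Pi1C.LefSetup.hyper D hU 0 ^ (n + 1)) (P n) := by
  classical
  have hsum : ∀ n i (a : Fin q → Cone.R D p), δ n i (∑ j, a j • β j n) =
      ∑ j, dh D p i (a j) • δ n i (β j n) := by
    intro n i a
    rw [map_sum]
    exact Finset.sum_congr rfl fun j _ => hδ _ _ _ _
  refine exists_sheafify_hyper D hU 0 G hG hK t q q' d e (fun l j i => dh D p i (K l j))
    (fun l j i i' => isHom_tr' (hKc l j) i i') (fun j n i => δ n i (β j n))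
    (fun j n i i' => hδtr n (d j) _ (hβc j n) i i')
    (fun j n i => ?_) (fun n i s => ?_) (fun n i l => ?_) (fun n i a ha => ?_)
  · rw [hδπ, hβπ]
  · obtain ⟨z, rfl⟩ := hδs n i s
    obtain ⟨m, a, ha⟩ := hgen n i z
    refine ⟨fun j => dh D p i (a j), ?_⟩
    rw [← hsum, ← ha, hδ, map_pow, dh_x_self, one_pow, one_smul]
  · rw [← hsum, hrel, map_zero]
  · -- homogeneous lifts
    choose N₀ hN₀ using fun j => exists_lift hs i (a j)
    let N : ℕ := ∑ j, (N₀ j + d j)
    have hN : ∀ j, N₀ j + d j ≤ N := fun j =>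
      Finset.single_le_sum (f := fun j => N₀ j + d j) (fun _ _ => Nat.zero_le _) (Finset.mem_univ j)
    choose s hs1 hs2 using fun j => hN₀ j (N - d j) (by have := hN j; omega)
    have hc : cM n N (∑ j, s j • β j n) = ∑ j, s j • β j n := by
      have : ∀ S : Finset (Fin q), cM n N (∑ j ∈ S, s j • β j n) = ∑ j ∈ S, s j • β j n := by
        intro S
        induction S using Finset.induction_on with
        | empty => rw [Finset.sum_empty, hcM_zero]
        | insert j S hj ih =>
          rw [Finset.sum_insert hj]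
          refine hcM_add _ _ _ _ ?_ ih
          have h1 := hcM n _ _ _ _ (hs1 j) (hβc j n)
          have h2 : (((N - d j : ℕ) : ℤ) + (d j : ℤ)) = N := by have := hN j; omega
          rwa [h2] at h1
      exact this _
    have h0 : δ n i (∑ j, s j • β j n) = 0 := by
      rw [hsum]
      simp only [hs2]
      exact ha
    obtain ⟨m, hm⟩ := hδ0 n i _ _ hc h0
    rw [Finset.smul_sum] at hm
    simp only [smul_smul] at hm
    obtain ⟨m', c, a', h⟩ := hker n i (N + m) _ (fun j => by
      have h1 := isHom_mul (isHom_x_pow D p i m) (hs1 j)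
      have h2 : (m : ℤ) + ((N - d j : ℕ) : ℤ) = ((N + m : ℕ) : ℤ) - d j := by have := hN j; omega
      rwa [h2] at h1) hm
    refine ⟨fun l => dh D p i (c l), fun j => dh D p i (a' j), fun j => ?_⟩
    have h1 := congrArg (dh D p i) (h j)
    simp only [map_mul, map_pow, dh_x_self, one_pow, one_mul, hs2, map_add, map_sum, dh_x] at h1
    exact h1

end Main

end Groth.Agent.Lefx.H80.ChartTr
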