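import Groth.Agent.Sga2.PnStalkDim
import Groth.Agent.CohqB.ProjBC
import Groth.Agent.Flat2D.PbStalk

/-!
# The local rings of the fibres of projective space over a ring
-/

set_option autoImplicit false
universe u

open CategoryTheory CategoryTheory.Limits AlgebraicGeometry TopologicalSpace IsLocalRing

namespace Groth.Agent.Lefx.H80.FibPn

/-- A closed point is closed in its fibre. -/
theorem isClosed_asFiber {X S : Scheme.{u}} (f : X ⟶ S) (x : X) (hx : IsClosed ({x} : Set X)) :
    IsClosed ({f.asFiber x} : Set (f.fiber (f.base x))) := by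
  have h : ({f.asFiber x} : Set (f.fiber (f.base x))) = (f.fiberι (f.base x)) ⁻¹' {x} := by
    ext z
    constructor
    · rintro rfl
      exact f.fiberι_asFiber x
    · intro hz
      apply (f.fiberι (f.base x)).isEmbedding.injective
      exact hz.trans (f.fiberι_asFiber x).symm
  rw [h]
  exact hx.preimage (f.fiberι _).continuous

variable (r : ℕ) (A : Type u) [CommRing A]

/-- The fibre of `P^r_A` over `s` is `P^r_{κ(s)}`. -/
theorem exists_isPullback (s : Spec (CommRingCat.of A)) :
    ∃ i : CohB1.ProjSpace r ((Spec (CommRingCat.of A)).residueField s) ⟶ CohB1.ProjSpace r A,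
      IsPullback i (CohB1.ProjSpace.toSpec r ((Spec (CommRingCat.of A)).residueField s))
        (CohB1.ProjSpace.toSpec r A) ((Spec (CommRingCat.of A)).fromSpecResidueField s) := by
  let φ : CommRingCat.of A ⟶ (Spec (CommRingCat.of A)).residueField s :=
    Spec.preimage ((Spec (CommRingCat.of A)).fromSpecResidueField s)
  have h := CohqB.ProjBC.isPullback_pmap φ.hom r
  have e : Spec.map (CommRingCat.ofHom φ.hom) = (Spec (CommRingCat.of A)).fromSpecResidueField s :=
    Spec.map_preimage _
  refine ⟨CohqB.ProjBC.pmap φ.hom r, ?_⟩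
  rw [← e]
  exact h

/-- **(H2)** the local ring of the fibre of `P^r_A` at a closed point of the fibre. -/
theorem exists_ringEquiv (x : CohB1.ProjSpace r A) :
    ∃ z : CohB1.ProjSpace r ((Spec (CommRingCat.of A)).residueField ((CohB1.ProjSpace.toSpec r A).base x)),
      Nonempty (((CohB1.ProjSpace r A).presheaf.stalk x ⧸
        (maximalIdeal ((Spec (CommRingCat.of A)).presheaf.stalk ((CohB1.ProjSpace.toSpec r A).base x))).map
          ((CohB1.ProjSpace.toSpec r A).stalkMap x).hom) ≃+*
        (CohB1.ProjSpace r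
          ((Spec (CommRingCat.of A)).residueField ((CohB1.ProjSpace.toSpec r A).base x))).presheaf.stalk z) ∧
      (IsClosed ({(CohB1.ProjSpace.toSpec r A).asFiber x} :
        Set ((CohB1.ProjSpace.toSpec r A).fiber ((CohB1.ProjSpace.toSpec r A).base x))) →
        IsClosed ({z} : Set (CohB1.ProjSpace r
          ((Spec (CommRingCat.of A)).residueField ((CohB1.ProjSpace.toSpec r A).base x))))) := by
  obtain ⟨i, hi⟩ := exists_isPullback r A ((CohB1.ProjSpace.toSpec r A).base x)
  let e := hi.isoPullback
  let z := e.inv ((CohB1.ProjSpace.toSpec r A).asFiber x)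
  have hez : e.hom z = (CohB1.ProjSpace.toSpec r A).asFiber x := by
    change e.hom (e.inv _) = _
    rw [← Scheme.Hom.comp_apply, e.inv_hom_id]
    rfl
  have hz : i z = x := by
    have h1 : e.hom ≫ (CohB1.ProjSpace.toSpec r A).fiberι _ = i := hi.isoPullback_hom_fst
    rw [← h1, Scheme.Hom.comp_apply, hez]
    exact (CohB1.ProjSpace.toSpec r A).fiberι_asFiber x
  refine ⟨z, ⟨Flat2D.PbStalk.pbStalkEquiv hi z hz⟩, fun h => ?_⟩
  have h2 : ({z} : Set _) = e.hom ⁻¹' {(CohB1.ProjSpace.toSpec r A).asFiber x} := by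
    ext y
    constructor
    · rintro rfl
      exact hez
    · intro hy
      have h3 : e.inv (e.hom y) = z := congrArg e.inv hy
      rw [← Scheme.Hom.comp_apply, e.hom_inv_id] at h3
      exact h3
  rw [h2]
  exact h.preimage e.hom.continuous

theorem isRegularLocalRing_quot (x : CohB1.ProjSpace r A) :
    IsRegularLocalRing ((CohB1.ProjSpace r A).presheaf.stalk x ⧸
      (maximalIdeal ((Spec (CommRingCat.of A)).presheaf.stalk ((CohB1.ProjSpace.toSpec r A).base x))).map
        ((CohB1.ProjSpace.toSpec r A).stalkMap x).hom) := by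
  obtain ⟨z, ⟨e⟩, -⟩ := exists_ringEquiv r A x
  have := Groth.Agent.Sga5.ProjReg.isRegularLocalRing_stalk r
    ((Spec (CommRingCat.of A)).residueField ((CohB1.ProjSpace.toSpec r A).base x)) z
  exact IsRegularLocalRing.of_ringEquiv e.symm

theorem ringKrullDim_quot (x : CohB1.ProjSpace r A)
    (hx : IsClosed ({(CohB1.ProjSpace.toSpec r A).asFiber x} :
      Set ((CohB1.ProjSpace.toSpec r A).fiber ((CohB1.ProjSpace.toSpec r A).base x)))) :
    ringKrullDim ((CohB1.ProjSpace r A).presheaf.stalk x ⧸
      (maximalIdeal ((Spec (CommRingCat.of A)).presheaf.stalk ((CohB1.ProjSpace.toSpec r A).base x))).map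
        ((CohB1.ProjSpace.toSpec r A).stalkMap x).hom) = r := by
  obtain ⟨z, ⟨e⟩, h⟩ := exists_ringEquiv r A x
  rw [ringKrullDim_eq_of_ringEquiv e]
  exact Groth.Agent.Sga2.PnStalkDim.ringKrullDim_stalk
    ((Spec (CommRingCat.of A)).residueField ((CohB1.ProjSpace.toSpec r A).base x)) r z (h hx)

theorem ringKrullDim_quot_of_isClosed (x : CohB1.ProjSpace r A)
    (hx : IsClosed ({x} : Set (CohB1.ProjSpace r A))) :
    ringKrullDim ((CohB1.ProjSpace r A).presheaf.stalk x ⧸
      (maximalIdeal ((Spec (CommRingCat.of A)).presheaf.stalk ((CohB1.ProjSpace.toSpec r A).base x))).map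
        ((CohB1.ProjSpace.toSpec r A).stalkMap x).hom) = r :=
  ringKrullDim_quot r A x (isClosed_asFiber _ x hx)

end Groth.Agent.Lefx.H80.FibPn
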