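import Groth.Agent.Localalg.LCRows
import Groth.Agent.Ega4dB.FiberDepth
import Mathlib.AlgebraicGeometry.Noetherian

/-!
# Local cohomology of the fibre module, in terms of the stalks on the total space

`H^i_m` of the stalk at `x` of the restriction of `F` to the fibre through `x` vanishes iff
`H^i_m (F_x / m_{f x} F_x)` vanishes, over `O_{X,x} / m_{f x} O_{X,x}`.
-/

set_option autoImplicit false
universe u

open CategoryTheory CategoryTheory.Limits AlgebraicGeometry TopologicalSpace IsLocalRing

namespace Groth.Agent.Lefx.H80.FibTr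

section Algebra

variable {R : Type u} [CommRing R] [IsNoetherianRing R] [IsLocalRing R]

/-- The maximal ideal generates the maximal ideal along a surjection of local rings. -/
theorem map_maximalIdeal_of_surjective {R' : Type*} [CommRing R'] [IsLocalRing R'] (φ : R →+* R')
    (hφ : Function.Surjective φ) : (maximalIdeal R).map φ = maximalIdeal R' := by
  have : IsLocalHom φ := IsLocalHom.of_surjective φ hφ
  apply le_antisymm
  · exact IsLocalRing.map_maximalIdeal_le φ
  · intro r hr
    obtain ⟨s, rfl⟩ := hφ r
    refine Ideal.mem_map_of_mem φ ?_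
    rw [mem_maximalIdeal, mem_nonunits_iff] at hr ⊢
    exact fun h => hr (h.map φ)

/-- Vanishing of local cohomology over a quotient and over the ring. -/
theorem subsingleton_iff_of_surjective {B : Type u} [CommRing B] [IsLocalRing B] [Algebra R B]
    (hs : Function.Surjective (algebraMap R B)) (i : ℕ) (N : Type u) [AddCommGroup N] [Module R N]
    [Module B N] [IsScalarTower R B N] :
    Subsingleton (LocCoh.H (maximalIdeal B) i N) ↔ Subsingleton (LocCoh.H (maximalIdeal R) i N) := by
  have : IsNoetherianRing B := isNoetherianRing_of_surjective R B (algebraMap R B) hs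
  rw [← map_maximalIdeal_of_surjective (algebraMap R B) hs]
  exact Localalg.LCRows.subsingleton_iff_res (maximalIdeal R) i N

/-- Vanishing of local cohomology of isomorphic modules. -/
theorem subsingleton_congr (I : Ideal R) (i : ℕ) {M N : Type u} [AddCommGroup M] [Module R M]
    [AddCommGroup N] [Module R N] (e : M ≃ₗ[R] N) :
    Subsingleton (LocCoh.H I i M) ↔ Subsingleton (LocCoh.H I i N) :=
  ((localCohomology I i).mapIso e.toModuleIso).toLinearEquiv.toEquiv.subsingleton_congr

/-- **Transfer along two presentations of the same quotient.** -/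
theorem subsingleton_of_semilinear {B : Type u} [CommRing B] [IsLocalRing B] (φ : R →+* B)
    (hφ : Function.Surjective φ) (I : Ideal R) [IsLocalRing (R ⧸ I)] (i : ℕ)
    (M : Type u) [AddCommGroup M] [Module R M] (N : Type u) [AddCommGroup N] [Module B N]
    (e : (M ⧸ (I • ⊤ : Submodule R M)) ≃+ N) (he : ∀ (r : R) (x : M ⧸ (I • ⊤ : Submodule R M)),
      e (r • x) = φ r • e x) :
    Subsingleton (LocCoh.H (maximalIdeal B) i N) ↔
      Subsingleton (LocCoh.H (maximalIdeal (R ⧸ I)) i (M ⧸ (I • ⊤ : Submodule R M))) := by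
  let : Algebra R B := φ.toAlgebra
  let : Module R N := Module.compHom N φ
  have : IsScalarTower R B N := IsScalarTower.of_algebraMap_smul fun _ _ => rfl
  rw [subsingleton_iff_of_surjective (R := R) (B := B) hφ i N,
    subsingleton_iff_of_surjective (R := R) (B := R ⧸ I) Ideal.Quotient.mk_surjective i]
  exact (subsingleton_congr (maximalIdeal R) i
    ({ e with map_smul' := fun r x => he r x } : (M ⧸ (I • ⊤ : Submodule R M)) ≃ₗ[R] N)).symm

end Algebra

section Scheme

variable {X S : Scheme.{u}} (f : X ⟶ S)

open Groth.Agent.Ega4dB.FiberDepth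

/-- Transport of a statement on `(z, f.fiberι s z)` to `(f.asFiber x, x)`. -/
theorem subsingleton_fiber_iff [IsLocallyNoetherian X] (F : X.Modules) (i : ℕ) (s : S) (z : f.fiber s)
    [IsLocalRing (X.presheaf.stalk (f.fiberι s z) ⧸ mIdeal f (f.fiberι s z))] :
    Subsingleton (LocCoh.H (maximalIdeal ((f.fiber s).presheaf.stalk z)) i
      (((Scheme.Modules.pullback (f.fiberι s)).obj F).presheaf.stalk z)) ↔
    Subsingleton (LocCoh.H (maximalIdeal (X.presheaf.stalk (f.fiberι s z) ⧸ mIdeal f (f.fiberι s z))) i
      (F.presheaf.stalk (f.fiberι s z) ⧸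
        (mIdeal f (f.fiberι s z) • ⊤ : Submodule (X.presheaf.stalk (f.fiberι s z))
          (F.presheaf.stalk (f.fiberι s z))))) := by
  let := Groth.Agent.Fdesc.PullbackStalk.stalkAlg (f.fiberι s) z
  let := FlatMod.moduleStalkOver (f.fiberι s) ((Scheme.Modules.pullback (f.fiberι s)).obj F) z
  have := Groth.Agent.Fdesc.PullbackStalk.isScalarTower (f.fiberι s)
    ((Scheme.Modules.pullback (f.fiberι s)).obj F) z
  have hbc := Groth.Agent.Fdesc.PullbackStalk.isBaseChange_can (f.fiberι s) F z
  have hsurj : Function.Surjective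
      (algebraMap (X.presheaf.stalk (f.fiberι s z)) ((f.fiber s).presheaf.stalk z)) :=
    CycB.FiberKer.stalkMap_fiberι_surjective f s z
  obtain ⟨h1, h2⟩ := exists_equiv_of_isBaseChange hsurj hbc
  have h3 : RingHom.ker (algebraMap (X.presheaf.stalk (f.fiberι s z)) ((f.fiber s).presheaf.stalk z)) =
      mIdeal f (f.fiberι s z) := CycB.FiberKer.ker_stalkMap_fiberι f s z
  rw [h3] at h2
  let e := (Submodule.quotEquivOfEq _ _ h2.symm).trans
    (LinearMap.quotKerEquivOfSurjective _ h1)
  have : IsNoetherianRing (X.presheaf.stalk (f.fiberι s z)) := inferInstance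
  refine subsingleton_of_semilinear (algebraMap (X.presheaf.stalk (f.fiberι s z))
    ((f.fiber s).presheaf.stalk z)) hsurj _ i _ _ e.toAddEquiv ?_
  intro r n
  change e (r • n) = _
  rw [e.map_smul]
  exact (algebraMap_smul ((f.fiber s).presheaf.stalk z) r (e n)).symm

/-- **(H1)** the local cohomology of the stalk of the fibre module and of `F_x / m_{f x} F_x`. -/
theorem subsingleton_asFiber_iff [IsLocallyNoetherian X] (F : X.Modules) (i : ℕ) (x : X)
    [hloc : IsLocalRing (X.presheaf.stalk x ⧸ mIdeal f x)] :
    Subsingleton (LocCoh.H (maximalIdeal (CInt.fiberStalk f x)) i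
      (((Scheme.Modules.pullback (f.fiberι (f.base x))).obj F).presheaf.stalk (f.asFiber x))) ↔
    Subsingleton (LocCoh.H (maximalIdeal (X.presheaf.stalk x ⧸ mIdeal f x)) i
      (F.presheaf.stalk x ⧸ (mIdeal f x • ⊤ : Submodule (X.presheaf.stalk x) (F.presheaf.stalk x)))) := by
  have key : ∀ (y : X) (hy : f.fiberι (f.base x) (f.asFiber x) = y)
      [IsLocalRing (X.presheaf.stalk y ⧸ mIdeal f y)],
      (Subsingleton (LocCoh.H (maximalIdeal (CInt.fiberStalk f x)) i
        (((Scheme.Modules.pullback (f.fiberι (f.base x))).obj F).presheaf.stalk (f.asFiber x))) ↔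
      Subsingleton (LocCoh.H (maximalIdeal (X.presheaf.stalk y ⧸ mIdeal f y)) i
        (F.presheaf.stalk y ⧸ (mIdeal f y • ⊤ : Submodule (X.presheaf.stalk y) (F.presheaf.stalk y))))) := by
    intro y hy hl
    subst hy
    exact subsingleton_fiber_iff f F i (f.base x) (f.asFiber x)
  exact key x (f.fiberι_asFiber x)

/-- The quotient `O_{X,x} / m_{f x} O_{X,x}` is local. -/
theorem isLocalRing_quot (x : X) : IsLocalRing (X.presheaf.stalk x ⧸ mIdeal f x) := by
  have h : mIdeal f x ≤ maximalIdeal (X.presheaf.stalk x) := IsLocalRing.map_maximalIdeal_le (f.stalkMap x).hom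
  have : Nontrivial (X.presheaf.stalk x ⧸ mIdeal f x) := Ideal.Quotient.nontrivial_iff.mpr fun h' => by
    rw [h', top_le_iff] at h
    exact (maximalIdeal.isMaximal _).ne_top h
  exact IsLocalRing.of_surjective' (Ideal.Quotient.mk _) Ideal.Quotient.mk_surjective

end Scheme

end Groth.Agent.Lefx.H80.FibTr
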