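import Groth.Prelude.Def_LefX
import Groth.Prelude.Def_Pic
import Groth.Agent.Sga2.PicThick
import Groth.Agent.Sga2.LefOpen
import Groth.Agent.PerfB.FreeRank
import Groth.Agent.PerfC.PullRestrict
import Groth.Agent.Ega2.QCohLocal

/-!
# Invertible modules on the thickenings `Y_n` and on open neighbourhoods of `Y` (SGA 2 XI 1.1)

* `exists_tower_from`, `exists_modSys`: if `H²(X, 𝓘^{m+1}/𝓘^{m+2}) = 0` for `m ≥ n`, every invertible module on
  `Y_n = V(𝓘^{n+1})` is the `n`-th level of a levelwise invertible `FSch.ModSys` on the completion.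
* `exists_nhd`: under `Leff(X, Y)` it comes from an invertible module on an open neighbourhood of `Y`.

Author: helper80
-/

set_option autoImplicit false
universe u

open CategoryTheory CategoryTheory.Limits AlgebraicGeometry TopologicalSpace Opposite

namespace Groth.Agent.Lefx.H80.NhdPic

open Groth.Agent Groth.Agent.Fdesc.LocGen Groth.Agent.Sga2.PicThick Groth.Agent.Sga2.LefOpen
  Groth.Agent.Sga2.LefThick

variable {X : Scheme.{u}}

theorem isInvertible_of_iso {Y : Scheme.{u}} {L M : Y.Modules} (e : L ≅ M) (hL : PicF.IsInvertible L) :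
    PicF.IsInvertible M := by
  intro x
  obtain ⟨U, hx, ⟨i⟩⟩ := hL x
  exact ⟨U, hx, ⟨(Scheme.Modules.restrictFunctor U.ι).mapIso e.symm ≪≫ i⟩⟩

/-- The tower of invertible modules above a given invertible module on `V(𝓘^{n+1})`. -/
theorem exists_tower_from (𝓘 : X.IdealSheafData) (n : ℕ)
    (hH : ∀ m : ℕ, n ≤ m → Subsingleton (Coh.HH X (kernel (Lef.quotMap (Lef.pow_succ_le 𝓘 m))) 2))
    (N : ((𝓘 ^ (n + 1)).subscheme).Modules) (hN : PicF.IsInvertible N) :
    ∃ S : ∀ k : ℕ, ((𝓘 ^ (n + k + 1)).subscheme).Modules, (∀ k, PicF.IsInvertible (S k)) ∧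
      S 0 = N ∧ ∀ k, Nonempty ((Scheme.Modules.pullback (inc 𝓘 (n + k))).obj (S (k + 1)) ≅ S k) := by
  have step : ∀ (m : ℕ) (_ : n ≤ m) (M : ((𝓘 ^ (m + 1)).subscheme).Modules), PicF.IsInvertible M →
      ∃ M' : ((𝓘 ^ (m + 2)).subscheme).Modules, PicF.IsInvertible M' ∧ Nonempty ((Scheme.Modules.pullback
        (inc 𝓘 m)).obj M' ≅ M) := by
    intro m hm M hM
    refine lift_inclusion (Lef.pow_succ_le 𝓘 m) ?_ (hH m hm) M hM
    rw [← pow_mul]
    have h1 : (m + 1) * 2 = (m + 2) + m := by ring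
    rw [h1, pow_add]
    exact mul_le_of_le_one_right' le_top
  let S : ∀ k : ℕ, {M : ((𝓘 ^ (n + k + 1)).subscheme).Modules // PicF.IsInvertible M} := fun k =>
    Nat.rec (motive := fun k => {M : ((𝓘 ^ (n + k + 1)).subscheme).Modules // PicF.IsInvertible M}) ⟨N, hN⟩
      (fun k M => ⟨(step (n + k) (Nat.le_add_right n k) M.1 M.2).choose,
        (step (n + k) (Nat.le_add_right n k) M.1 M.2).choose_spec.1⟩) k
  exact ⟨fun k => (S k).1, fun k => (S k).2, rfl,
    fun k => (step (n + k) (Nat.le_add_right n k) (S k).1 (S k).2).choose_spec.2⟩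

theorem pow_add_succ_le (𝓘 : X.IdealSheafData) (n m : ℕ) : 𝓘 ^ (n + m + 1) ≤ 𝓘 ^ (m + 1) := by
  rw [add_assoc, pow_add]
  exact mul_le_of_le_one_left' le_top

theorem pow_add_succ_le' (𝓘 : X.IdealSheafData) (n k : ℕ) : 𝓘 ^ (n + k + 1) ≤ 𝓘 ^ (n + 1) := by
  have h : n + k + 1 = k + n + 1 := by omega
  rw [h]
  exact pow_add_succ_le 𝓘 k n

/-- Isomorphisms between pullbacks of pullbacks from an equality of compositions. -/
noncomputable def pullSquare {A B C D : Scheme.{u}} (f : A ⟶ B) (g : B ⟶ D) (f' : A ⟶ C) (g' : C ⟶ D)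
    (h : f ≫ g = f' ≫ g') (M : D.Modules) :
    (Scheme.Modules.pullback f).obj ((Scheme.Modules.pullback g).obj M) ≅
      (Scheme.Modules.pullback f').obj ((Scheme.Modules.pullback g').obj M) :=
  (Scheme.Modules.pullbackComp f g).app M ≪≫ (Scheme.Modules.pullbackCongr h).app M ≪≫
    ((Scheme.Modules.pullbackComp f' g').app M).symm

/-- Composition of pullback isomorphisms. -/
noncomputable def pullCompIso {A B C : Scheme.{u}} (f : A ⟶ B) (g : B ⟶ C) (h : A ⟶ C) (w : f ≫ g = h)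
    {M : C.Modules} {M' : B.Modules} {M'' : A.Modules} (e' : (Scheme.Modules.pullback g).obj M ≅ M')
    (e : (Scheme.Modules.pullback f).obj M' ≅ M'') : (Scheme.Modules.pullback h).obj M ≅ M'' :=
  (Scheme.Modules.pullbackCongr w.symm).app M ≪≫ ((Scheme.Modules.pullbackComp f g).app M).symm ≪≫
    (Scheme.Modules.pullback f).mapIso e' ≪≫ e

/-- The level `n` of an isomorphism of systems of modules. -/
noncomputable def levelIso {𝔛 : FSch.Sys.{u}} {𝔐 𝔑 : FSch.ModSys 𝔛} (Φ : 𝔐 ≅ 𝔑) (n : ℕ) : 𝔐.F n ≅ 𝔑.F n where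
  hom := (Φ.hom : FSch.ModSys.Hom 𝔐 𝔑).app n
  inv := (Φ.inv : FSch.ModSys.Hom 𝔑 𝔐).app n
  hom_inv_id := congrArg (fun f : FSch.ModSys.Hom 𝔐 𝔐 => f.app n) Φ.hom_inv_id
  inv_hom_id := congrArg (fun f : FSch.ModSys.Hom 𝔑 𝔑 => f.app n) Φ.inv_hom_id

/-- A system of modules on the completion from its levels. -/
noncomputable def mkSys (𝓘 : X.IdealSheafData) (F : ∀ m : ℕ, ((𝓘 ^ (m + 1)).subscheme).Modules)
    (e : ∀ m : ℕ, (Scheme.Modules.pullback (inc 𝓘 m)).obj (F (m + 1)) ≅ F m) :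
    FSch.ModSys (FSch.completionAlong X 𝓘) where
  F := F
  e := e

/-- Every invertible module on `Y_n` is level `n` of a levelwise invertible system. -/
theorem exists_modSys (𝓘 : X.IdealSheafData) (n : ℕ)
    (hH : ∀ m : ℕ, n ≤ m → Subsingleton (Coh.HH X (kernel (Lef.quotMap (Lef.pow_succ_le 𝓘 m))) 2))
    (N : ((𝓘 ^ (n + 1)).subscheme).Modules) (hN : PicF.IsInvertible N) :
    ∃ 𝔐 : FSch.ModSys (FSch.completionAlong X 𝓘), (∀ m, PicF.IsInvertible (𝔐.F m)) ∧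
      Nonempty (𝔐.F n ≅ N) := by
  obtain ⟨S, hS, hS0, hSt⟩ := exists_tower_from 𝓘 n hH N hN
  let i : ∀ m : ℕ, (𝓘 ^ (m + 1)).subscheme ⟶ (𝓘 ^ (n + m + 1)).subscheme := fun m =>
    Scheme.IdealSheafData.inclusion (pow_add_succ_le 𝓘 n m)
  have hi : ∀ m : ℕ, inc 𝓘 m ≫ i (m + 1) = i m ≫ inc 𝓘 (n + m) := fun m => by
    dsimp only [i]
    rw [Scheme.IdealSheafData.inclusion_comp]
    exact (Scheme.IdealSheafData.inclusion_comp _ _).symm
  have key : ∀ k : ℕ, Nonempty ((Scheme.Modules.pullback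
      (Scheme.IdealSheafData.inclusion (pow_add_succ_le' 𝓘 n k))).obj (S k) ≅ N) := by
    intro k
    induction k with
    | zero =>
      refine ⟨(Scheme.Modules.pullbackCongr (Scheme.IdealSheafData.inclusion_id _)).app (S 0) ≪≫
        (Scheme.Modules.pullbackId _).app (S 0) ≪≫ eqToIso hS0⟩
    | succ k ih =>
      obtain ⟨e⟩ := ih
      obtain ⟨e'⟩ := hSt k
      exact ⟨pullCompIso _ (inc 𝓘 (n + k)) _ (Scheme.IdealSheafData.inclusion_comp _ _) e' e⟩
  have e : ∀ m : ℕ, (Scheme.Modules.pullback (inc 𝓘 m)).obj ((Scheme.Modules.pullback (i (m + 1))).obj (S (m + 1))) ≅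
      (Scheme.Modules.pullback (i m)).obj (S m) := fun m =>
    pullSquare _ _ _ _ (hi m) (S (m + 1)) ≪≫ (Scheme.Modules.pullback (i m)).mapIso (hSt m).some
  have hinv : ∀ m : ℕ, PicF.IsInvertible ((Scheme.Modules.pullback (i m)).obj (S m)) := fun m =>
    Sga2.PicThick.isInvertible_pullback _ (hS m)
  exact ⟨mkSys 𝓘 (fun m => (Scheme.Modules.pullback (i m)).obj (S m)) e, hinv, key n⟩

/-- Rank one at a point, read off from a pullback. -/
theorem rank_eq_one_of_pullback {P T : Scheme.{u}} (π : P ⟶ T) {N : T.Modules}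
    (h : PicF.IsInvertible ((Scheme.Modules.pullback π).obj N)) (x : P) {U : T.Opens} (hx : π x ∈ U) {n : ℕ}
    (e : N.restrict U.ι ≅ FlatMod.freeMod U n) : n = 1 := by
  obtain ⟨W, hxW, ⟨e'⟩⟩ := Ega2.QCohLocal.isFinLocFreeOfRank_one_iff.2 h x
  have pull_free : ∀ {Z T : Scheme.{u}} (a : Z ⟶ T) (U : T.Opens) (_ : Set.range a ⊆ (U : Set T))
    {N : T.Modules} {n : ℕ} (_ : N.restrict U.ι ≅ FlatMod.freeMod U n),
    Nonempty ((Scheme.Modules.pullback a).obj N ≅ FlatMod.freeMod Z n) := by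
    intro Z T a U ha N n e
    let l : Z ⟶ U := IsOpenImmersion.lift U.ι a (by simpa using ha)
    have hl : l ≫ U.ι = a := IsOpenImmersion.lift_fac _ _ _
    exact ⟨(Scheme.Modules.pullbackCongr hl.symm).app N ≪≫ (Scheme.Modules.pullbackComp l U.ι).symm.app N ≪≫
      (Scheme.Modules.pullback l).mapIso (((Scheme.Modules.restrictFunctorIsoPullback U.ι).symm.app N) ≪≫ e) ≪≫
      PerfC.PullRestrict.pullbackFreeMod l n⟩
  let V : P.Opens := W ⊓ π ⁻¹ᵁ U
  have hx : x ∈ V := ⟨hxW, hx⟩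
  obtain ⟨e₁⟩ := pull_free (V.ι ≫ π) U (by
    rintro _ ⟨v, rfl⟩
    rw [Scheme.Hom.comp_apply]
    exact v.2.2) e
  obtain ⟨e₂⟩ := pull_free V.ι W (by
    rintro _ ⟨v, rfl⟩
    exact v.2.1) e'
  exact PerfB.FreeRank.rank_eq (⟨x, hx⟩ : V)
    (e₁.symm ≪≫ (Scheme.Modules.pullbackComp V.ι π).symm.app N ≪≫ e₂)

/-- The open locus where a module has a local generator. -/
noncomputable def invLocus {T : Scheme.{u}} (N : T.Modules) : T.Opens where
  carrier := {x | ∃ (V : T.Opens) (e : Γ(N, V)), x ∈ V ∧ IsGen e}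
  is_open' := by
    rw [isOpen_iff_forall_mem_open]
    rintro x ⟨V, e, hx, he⟩
    exact ⟨V, fun y hy => ⟨V, e, hy, he⟩, V.isOpen, hx⟩

theorem mem_invLocus {T : Scheme.{u}} {N : T.Modules} {x : T} :
    x ∈ invLocus N ↔ ∃ (V : T.Opens) (e : Γ(N, V)), x ∈ V ∧ IsGen e := Iff.rfl

theorem isInvertible_pullback_of_range {A T : Scheme.{u}} (f : A ⟶ T) {N : T.Modules}
    (hf : ∀ a, f a ∈ invLocus N) : PicF.IsInvertible ((Scheme.Modules.pullback f).obj N) := by
  rw [isInvertible_iff]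
  intro x
  obtain ⟨W, l, hx, hl⟩ := hf x
  exact ⟨f ⁻¹ᵁ W, pullSec _ l, hx, hl.pullSec _⟩

theorem mem_invLocus_of_pullback {P T : Scheme.{u}} (π : P ⟶ T) {N : T.Modules}
    (hN : FlatMod.IsFinLocFree N) (h : PicF.IsInvertible ((Scheme.Modules.pullback π).obj N)) (x : P) :
    π x ∈ invLocus N := by
  obtain ⟨U, n, hx, ⟨e⟩⟩ := hN (π x)
  obtain rfl := rank_eq_one_of_pullback π h x hx e
  let e' : Coh.structureModule (U : Scheme.{u}) ≅ N.restrict U.ι :=
    Ega2.QCohLocal.freeModOneIso U ≪≫ e.symm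
  have h1 : IsGen (sec e'.hom ⊤) := (isIso_iff_isGen e'.hom).mp inferInstance
  obtain ⟨m, hm⟩ := (toRestrict (M := N) U.ι (U := ⊤)).surjective (sec e'.hom ⊤)
  rw [← hm, isGen_toRestrict_iff] at h1
  exact ⟨_, m, by simpa using hx, h1⟩

/-- `f^* f_* M ≅ M` for an open immersion, in the form `g^* (U.ι^* (U.ι_* E)) ≅ g^* E`. -/
theorem nonempty_pullback_push_iso {A : Scheme.{u}} {U : X.Opens} (g : A ⟶ U) (h : A ⟶ X) (w : g ≫ U.ι = h)
    (E : (U : Scheme.{u}).Modules) :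
    Nonempty ((Scheme.Modules.pullback h).obj ((Scheme.Modules.pushforward U.ι).obj E) ≅
      (Scheme.Modules.pullback g).obj E) := by
  have : IsIso ((Scheme.Modules.pullbackPushforwardAdjunction U.ι).counit.app E) := inferInstance
  exact ⟨pullCompIso g U.ι h w (Iso.refl _)
    ((Scheme.Modules.pullback g).mapIso (asIso ((Scheme.Modules.pullbackPushforwardAdjunction U.ι).counit.app E)))⟩

/-- **Algebraisation near `Y`**: under Leff, every invertible module on `Y_n` (with `H² = 0` from level `n` on) is the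
pull-back of an invertible module on an open neighbourhood of `Y`. -/
theorem exists_nhd (𝓘 : X.IdealSheafData) (h1 : LefX.LeffCond X 𝓘) (n : ℕ)
    (hH : ∀ m : ℕ, n ≤ m → Subsingleton (Coh.HH X (kernel (Lef.quotMap (Lef.pow_succ_le 𝓘 m))) 2))
    (N : ((𝓘 ^ (n + 1)).subscheme).Modules) (hN : PicF.IsInvertible N) :
    ∃ (U : X.Opens) (L : (U : Scheme.{u}).Modules) (g : (𝓘 ^ (n + 1)).subscheme ⟶ U),
      (𝓘.support : Set X) ⊆ (U : Set X) ∧ g ≫ U.ι = (𝓘 ^ (n + 1)).subschemeι ∧ PicF.IsInvertible L ∧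
      Nonempty ((Scheme.Modules.pullback g).obj L ≅ N) := by
  obtain ⟨𝔐, h𝔐, ⟨eN⟩⟩ := exists_modSys 𝓘 n hH N hN
  obtain ⟨U, E, hU, hE, ⟨Φ⟩⟩ := h1.2 𝔐 (fun m =>
    Ega2.QCohLocal.isFinLocFree_of_rank (Ega2.QCohLocal.isFinLocFreeOfRank_one_iff.mpr (h𝔐 m)))
  -- level `n`
  have e1 : (Scheme.Modules.pullback (tι 𝓘 n)).obj ((Scheme.Modules.pushforward U.ι).obj E) ≅ N :=
    levelIso Φ n ≪≫ eN
  let g : (𝓘 ^ (n + 1)).subscheme ⟶ U := τ 𝓘 U hU n
  have hg : g ≫ U.ι = tι 𝓘 n := τ_ι 𝓘 U hU n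
  obtain ⟨e2⟩ := nonempty_pullback_push_iso g (tι 𝓘 n) hg E
  have e3 : (Scheme.Modules.pullback g).obj E ≅ N := e2.symm ≪≫ e1
  have hmem : ∀ y, g y ∈ invLocus E := mem_invLocus_of_pullback g hE (isInvertible_of_iso e3.symm hN)
  -- shrink
  let V : X.Opens := U.ι ''ᵁ invLocus E
  have hVU : V ≤ U := U.ι_image_le _
  have hYV : (𝓘.support : Set X) ⊆ (V : Set X) := by
    intro y hy
    have hy' : y ∈ Set.range (tι 𝓘 n) := by
      rw [Scheme.IdealSheafData.range_subschemeι, Scheme.IdealSheafData.support_pow_succ]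
      exact hy
    obtain ⟨z, rfl⟩ := hy'
    exact ⟨g z, hmem z, by
      rw [← hg]
      rfl⟩
  refine ⟨V, (Scheme.Modules.pullback (X.homOfLE hVU)).obj E, τ 𝓘 V hYV n, hYV, τ_ι 𝓘 V hYV n, ?_, ?_⟩
  · apply isInvertible_pullback_of_range
    intro x
    obtain ⟨z, hz, hzx⟩ := x.2
    have : X.homOfLE hVU x = z := by
      apply U.ι.isOpenEmbedding.injective
      refine Eq.trans ?_ hzx.symm
      rw [← Scheme.Hom.comp_apply, Scheme.homOfLE_ι]
      rfl
    rw [this]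
    exact hz
  · refine ⟨(Scheme.Modules.pullbackComp _ _).app E ≪≫ (Scheme.Modules.pullbackCongr ?_).app E ≪≫ e3⟩
    rw [← cancel_mono U.ι, Category.assoc, Scheme.homOfLE_ι, τ_ι, hg]

end Groth.Agent.Lefx.H80.NhdPic
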