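import Groth.Agent.Lefx.H80.OfPres
import Groth.Agent.Sga2lef.H151.TwGr
import Groth.Agent.Sga2lef.H151.TwClosed
import Groth.Agent.Sga2lef.H78.KCalc

/-!
# From a presentation of the graded modules of twisted sections to a coherent module (for S3381)

`exists_alg_of_pres`: for an adic system `S : KCalc.Sys (hyper D hU 0)` a presentation `GrSys.Pres` of
`n ↦ MG D (S.G n)` over the cone ring yields a coherent `F` with `KCalc.Alg S F`.

Author: helper80
-/

set_option autoImplicit false
universe u

open CategoryTheory CategoryTheory.Limits AlgebraicGeometry TopologicalSpace Opposite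
open scoped DirectSum

namespace Groth.Agent.Lefx.H80.OfMG

open Groth.Agent Groth.Agent.Fdesc.LocGen Groth.Agent.FormalB.KQuot
  Groth.Agent.VarietyB.ProjGlue Groth.Agent.Lefx.H80.Sheafify Groth.Agent.Lefx.H80.ChartTr
open Groth.Agent.Pi1C Groth.Agent.Pi1C.GrSec Sga2lef.H103.GrSys Sga2lef.H151.TwMod
open Groth.Agent.Pi1C.TwistSec (Sec u u_val)

section

variable {X : Scheme.{u}} {I : Type} (D : CoordData X I) (G : X.Modules)

/-- Dehomogenization of the graded module of twisted sections. -/
noncomputable def dG (i : I) : MG D G →+ Γ(G, D.U i) :=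
  DirectSum.toAddMonoid fun a =>
    { toFun := fun σ : GSec D G a => σ.1 i
      map_zero' := rfl
      map_add' := fun _ _ => rfl }

theorem dG_ghom (i : I) (a : ℤ) (σ : GSec D G a) : dG D G i (ghom D G a σ) = σ.1 i :=
  DirectSum.toAddMonoid_of _ _ _

/-- Dehomogenization of the ring of twisted sections. -/
noncomputable def dM (i : I) : GrSec.M D →+* Γ(X, D.U i) := ev1.comp (chart D i)

theorem dM_hom (i : I) (a : ℤ) (σ : Sec D a) : dM D i (hom D a σ) = σ.1 i := by
  change ev1 (chart D i (hom D a σ)) = _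
  rw [chart_hom, ev1_C_mul_T]

theorem dG_smul (i : I) (m : GrSec.M D) (z : MG D G) : dG D G i (m • z) = dM D i m • dG D G i z := by
  induction m using GrSec.induction_on with
  | h0 =>
    rw [map_zero, zero_smul]
    exact (congrArg (dG D G i) (zero_smul (GrSec.M D) z)).trans (map_zero _)
  | h1 a σ =>
    induction z using ginduction_on with
    | h0 => rw [smul_zero, map_zero, smul_zero]
    | h1 b τ =>
      rw [hom_smul_ghom, dG_ghom, dG_ghom, dM_hom]
      rfl
    | h2 z w hz hw => rw [smul_add, map_add, map_add, smul_add, hz, hw]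
  | h2 m m' h h' =>
    refine (congrArg (dG D G i) (add_smul m m' z)).trans ((map_add _ _ _).trans ?_)
    rw [map_add, add_smul, h, h']

theorem dG_mapG {G' : X.Modules} (φ : G ⟶ G') (i : I) (z : MG D G) :
    dG D G' i (mapG D φ z) = φ.app (D.U i) (dG D G i z) := by
  induction z using ginduction_on with
  | h0 => rw [map_zero, map_zero, map_zero, map_zero]
  | h1 a σ =>
    have h1 : mapG D φ (ghom D G a σ) = ghom D G' a (secMap D φ a σ) := DirectSum.map_of _ _ _
    rw [h1, dG_ghom, dG_ghom]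
    rfl
  | h2 z w hz hw => rw [map_add, map_add, map_add, map_add, hz, hw]

theorem eq_ghom_of_cG {a : ℤ} {z : MG D G} (h : cG D G a z = z) : z = ghom D G a (z a) := h.symm

theorem dG_eq_comp {a : ℤ} {z : MG D G} (h : cG D G a z = z) (i : I) :
    dG D G i z = comp D G a i z := by
  conv_lhs => rw [eq_ghom_of_cG D G h, dG_ghom]
  rfl

end

section Cone

variable {X : Scheme.{u}} {r : ℕ} (D : CoordData X (Fin (r + 1))) {k : Type u} [Field k]
  (p : X ⟶ Spec (CommRingCat.of k))

/-- **From a presentation to a coherent module.** -/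
theorem exists_alg_of_pres (hU : ∀ i, IsAffineOpen (D.U i)) [∀ i, QuasiCompact (D.U i).ι]
    (hb : ∀ i j, X.basicOpen (D.f i j) = D.U i ⊓ D.U j) (hs : ∀ i, Function.Surjective (D.hom p i))
    (S : Sga2lef.H78.KCalc.Sys (Pi1C.LefSetup.hyper D hU 0))
    (P : Pres (Cone.x D p 0) (Cone.x D p) (cA D p) (fun n => mapR D p (S.t n)) (fun n => cG D (S.G n))) :
    ∃ F : X.Modules, Coh.IsCoh F ∧ Sga2lef.H78.KCalc.Alg S F := by
  have hL : ∀ (n : ℕ) (V : X.Opens), IsAffineOpen V → CohqB.QC2.Loc (S.G n) V := fun n V hV =>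
    have := S.qc n
    CohqB.QC2.loc_of_isQuasicoherent _ hV
  obtain ⟨E, Q, hE, hQ, hQ'⟩ := OfPres.exists_of_pres D p hU hs S.G S.qc S.killed S.t (cA D p)
    (fun a t => toM_cA D p a t) (fun n => MG D (S.G n)) (fun n => mapR D p (S.t n))
    (fun n => cG D (S.G n)) (fun n => grMod D p (S.G n)) (fun n i => dG D (S.G n) i)
    (fun n i a z => by
      have h1 : dh D p i a = dM D i (GrCone.toM D p a) := by
        change ev1 (Cone.chart D p i a) = ev1 (chart D i (GrCone.toM D p a))
        rw [GrCone.chart_toM]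
      rw [h1]
      exact dG_smul D (S.G n) i (GrCone.toM D p a) z)
    (fun n i z => (dG_mapG D (S.G (n + 1)) (S.t n) i z).symm)
    (fun n i s => by
      obtain ⟨N, z, hz, hz'⟩ := exists_comp_eq D (S.G n) hU hb (hL n) i s 0
      exact ⟨z, (dG_eq_comp D (S.G n) hz i).trans hz'⟩)
    (fun n i a z hz h0 => by
      rw [dG_eq_comp D (S.G n) hz i] at h0
      obtain ⟨N, hN⟩ := exists_pow_smul_eq_zero_of_comp D (S.G n) hU hb (hL n) i z (fun b => by
        by_cases hba : b = a
        · rw [hba]; exact h0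
        · exact (cG_eq_self_iff D (S.G n) a z).1 hz b i hba)
      exact ⟨N, by rw [x_pow_smul]; exact hN⟩)
    (fun n a z hz i j => by
      rw [dG_eq_comp D (S.G n) hz i, dG_eq_comp D (S.G n) hz j]
      have h1 : gL D (S.G n) i j ((z a).1 i) = ((u D i j ^ (a : ℤ) : Γ(X, D.U i ⊓ D.U j)ˣ) :
        Γ(X, D.U i ⊓ D.U j)) • gR D (S.G n) i j ((z a).1 j) := (z a).2 i j
      rw [zpow_natCast, Units.val_pow_eq_pow_val, u_val] at h1
      exact h1) P
  exact ⟨E, hE, Q, hQ, hQ'⟩

end Cone

end Groth.Agent.Lefx.H80.OfMG
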