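import Groth.Agent.Lefx.H80.ChartTr
import Groth.Agent.Sga2lef.H103.GrPres

/-!
# From `GrSys.Pres` to a coherent module (for S3381)

Author: helper80
-/

set_option autoImplicit false
universe u

open CategoryTheory CategoryTheory.Limits AlgebraicGeometry TopologicalSpace Opposite

namespace Groth.Agent.Lefx.H80.OfPres

open Groth.Agent Groth.Agent.Fdesc.LocGen Groth.Agent.FormalB.KQuot
  Groth.Agent.VarietyB.ProjGlue Groth.Agent.Lefx.H80.Sheafify Groth.Agent.Lefx.H80.ChartTr
open Pi1C Pi1C.TwistSec Pi1C.GrSec Pi1C.GrCone Sga2lef.H103.GrSys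

variable {X : Scheme.{u}} {r : ℕ} (D : CoordData X (Fin (r + 1))) {k : Type u} [Field k]
  (p : X ⟶ Spec (CommRingCat.of k))

/-- From a graded presentation to a coherent module. -/
theorem exists_of_pres (hU : ∀ i, IsAffineOpen (D.U i)) [∀ i, QuasiCompact (D.U i).ι]
    (hs : ∀ i, Function.Surjective (D.hom p i))
    (G : ℕ → X.Modules) (hG : ∀ n, Coh.IsQCoh (G n))
    (hK : ∀ n, ClSub.KilledByIdeal (Pi1C.LefSetup.hyper D hU 0 ^ (n + 1)) (G n))
    (t : ∀ n, G (n + 1) ⟶ G n)
    (cA : ℤ → Cone.R D p →+ Cone.R D p) (hcA : ∀ a t, toM D p (cA a t) = hom D a (toM D p t a))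
    (M : ℕ → Type*) [∀ n, AddCommGroup (M n)] [∀ n, Module (Cone.R D p) (M n)]
    (π : ∀ n, M (n + 1) →ₗ[Cone.R D p] M n) (cM : ∀ n, ℤ → M n →+ M n)
    (hcM : ∀ n, GrMod cA (cM n))
    (δ : ∀ n i, M n →+ Γ(G n, D.U i))
    (hδ : ∀ n i (a : Cone.R D p) z, δ n i (a • z) = dh D p i a • δ n i z)
    (hδπ : ∀ n i z, (t n).app (D.U i) (δ (n + 1) i z) = δ n i (π n z))
    (hδs : ∀ n i, Function.Surjective (δ n i))
    (hδ0 : ∀ n i a z, cM n a z = z → δ n i z = 0 → ∃ m : ℕ, Cone.x D p i ^ m • z = 0)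
    (hδtr : ∀ n (a : ℕ) z, cM n a z = z → ∀ i j,
      res (G n) inf_le_left (δ n i z) = tr D i j ^ a • res (G n) inf_le_right (δ n j z))
    (P : Pres (Cone.x D p 0) (Cone.x D p) cA π cM) :
    ∃ (E : X.Modules) (P : ∀ n, E ⟶ G n), Coh.IsCoh E ∧ (∀ n, P (n + 1) ≫ t n = P n) ∧
      ∀ n, IsKQuot (Pi1C.LefSetup.hyper D hU 0 ^ (n + 1)) (P n) := by
  classical
  have hiff : ∀ {a : ℤ} {s : Cone.R D p}, IsHom D p a s ↔ cA a s = s := fun {a s} =>
    isHom_iff (cA := fun a s => cA a s) hcA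
  refine exists_of_graded D p hU hs G hG hK t M (fun n => π n) (fun n a => cM n a)
    (fun n a z w hz hw => by rw [map_add, hz, hw]) (fun n a => map_zero _)
    (fun n a b s z h hz => (hcM n).smul a b s z (hiff.1 h) hz) δ hδ hδπ hδs hδ0 hδtr P.q P.r P.d P.e P.b
    P.b_compat P.b_hom P.K (fun l j => hiff.2 (P.K_hom l j)) (fun n l => P.rel l n) (fun n i z => ?_)
    (fun n i N a ha h0 => ?_)
  · -- the homogeneous components
    have key : ∀ s : Finset ℤ, ∃ (m : ℕ) (a : Fin P.q → Cone.R D p),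
        Cone.x D p i ^ m • (∑ b ∈ s, cM n b z) = ∑ j, a j • P.b j n := by
      intro s
      induction s using Finset.induction_on with
      | empty =>
        refine ⟨0, fun _ => 0, ?_⟩
        rw [Finset.sum_empty, smul_zero]
        symm
        refine Finset.sum_eq_zero fun j _ => ?_
        exact zero_smul (Cone.R D p) (P.b j n)
      | insert b s hb ih =>
        obtain ⟨m, a, h⟩ := ih
        obtain ⟨m', v, -, h'⟩ := P.surj n i b (cM n b z) ((hcM n).self b z)
        refine ⟨m + m', fun j => Cone.x D p i ^ m * v j + Cone.x D p i ^ m' * a j, ?_⟩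
        rw [Finset.sum_insert hb, smul_add]
        have e1 : Cone.x D p i ^ (m + m') • cM n b z = ∑ j, (Cone.x D p i ^ m * v j) • P.b j n := by
          rw [pow_add, mul_smul, h', Finset.smul_sum]
          exact Finset.sum_congr rfl fun j _ => (mul_smul _ _ _).symm
        have e2 : Cone.x D p i ^ (m + m') • (∑ b ∈ s, cM n b z) =
            ∑ j, (Cone.x D p i ^ m' * a j) • P.b j n := by
          rw [add_comm m m', pow_add, mul_smul, h, Finset.smul_sum]
          exact Finset.sum_congr rfl fun j _ => (mul_smul _ _ _).symm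
        rw [e1, e2, ← Finset.sum_add_distrib]
        exact Finset.sum_congr rfl fun j _ => (add_smul _ _ _).symm
    obtain ⟨s, hs⟩ := (hcM n).fin z
    have := key s
    rwa [hs] at this
  · obtain ⟨m, w, c, -, -, h⟩ := P.ker n i N a (fun j => hiff.1 (ha j)) h0
    exact ⟨m, c, w, fun j => by rw [h j, add_comm]⟩

end Groth.Agent.Lefx.H80.OfPres
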