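import Groth.Agent.FormalB.TrKQuot
import Groth.Agent.CohqB.AffIso
import Groth.Agent.Pi1C.LefSetup
import Groth.Agent.Picfga.LineCocycle
import Groth.Agent.Sga67.CohBasic
import Groth.Agent.Ega2.QCohLocal
import Groth.Agent.Ega4dA.Frame
import Groth.Agent.CohqA.HBiprod
import Groth.Agent.CohqB.FiniteType2

/-!
# Sheafification of graded presentations (for S3381)

* `isKQuot_of_affine_cover`: a morphism `E ⟶ G` of quasi-coherent modules, `K G = 0`, which on an affine open cover is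
  surjective on sections with kernel `K Γ(E)`, is the quotient `E / K E`.
* `exists_sheafify`: from homogeneous presentation data on the standard charts of coordinate data to a coherent module.

Author: helper80
-/

set_option autoImplicit false
universe u

open CategoryTheory CategoryTheory.Limits AlgebraicGeometry TopologicalSpace Opposite

namespace Groth.Agent.Lefx.H80.Sheafify

open Groth.Agent Groth.Agent.Fdesc.LocGen Groth.Agent.FormalB.KQuot Groth.Agent.FormalB.TrKQuot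
  Groth.Agent.VarietyB.ProjGlue

variable {X : Scheme.{u}}

/-- Criterion for `p` to be the quotient by `K`. -/
theorem isKQuot_of_affine_cover {K : X.IdealSheafData} {E G : X.Modules} (hE : Coh.IsQCoh E)
    (hG : Coh.IsQCoh G) (hK : ClSub.KilledByIdeal K G) (p : E ⟶ G)
    (h : ∀ x : X, ∃ V : X.affineOpens, x ∈ V.1 ∧ Function.Surjective (p.app V.1) ∧
      ∀ s, p.app V.1 s = 0 → s ∈ K.ideal V • (⊤ : Submodule Γ(X, V.1) Γ(E, V.1))) : IsKQuot K p := by
  have h0 := isKQuot_kπ K hE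
  obtain ⟨ψ, hψ⟩ := h0.desc p hK
  have hiso : IsIso ψ := by
    have : Coh.IsQCoh (kq K E) := isQCoh_kq K hE
    have := hG
    refine CohqB.AffIso.isIso_of_affine_cover ψ fun x => ?_
    obtain ⟨V, hx, hs, hk⟩ := h x
    have happ : ∀ s, ψ.app V.1 ((kπ K E).app V.1 s) = p.app V.1 s := fun s => by
      rw [← hψ]; rfl
    refine ⟨V.1, hx, V.2, ?_, ?_⟩
    · rw [injective_iff_map_eq_zero]
      intro s hs0
      obtain ⟨s, rfl⟩ := IsKQuot.app_surjective h0 hE V.2 s
      rw [happ] at hs0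
      exact (IsKQuot.app_eq_zero_iff h0 hE V s).2 (hk s hs0)
    · intro s
      obtain ⟨s', hs'⟩ := hs s
      exact ⟨(kπ K E).app V.1 s', by rw [happ, hs']⟩
  rw [← hψ]
  exact h0.comp_iso ψ

theorem smul_top_map {R M N : Type*} [CommRing R] [AddCommGroup M] [Module R M] [AddCommGroup N] [Module R N]
    (I : Ideal R) (f : M →ₗ[R] N) {m : M} (hm : m ∈ I • (⊤ : Submodule R M)) :
    f m ∈ I • (⊤ : Submodule R N) := by
  have h1 : f m ∈ (I • (⊤ : Submodule R M)).map f := Submodule.mem_map_of_mem hm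
  rw [Submodule.map_smul''] at h1
  exact (Submodule.smul_mono le_rfl le_top) h1

/-- The linear map on sections. -/
noncomputable def appLin {M N : X.Modules} (f : M ⟶ N) (V : X.Opens) : Γ(M, V) →ₗ[Γ(X, V)] Γ(N, V) where
  toFun := f.app V
  map_add' := map_add _
  map_smul' a m := Scheme.Modules.Hom.app_smul f a m

/-- The quotient of `coker φ`. -/
theorem isKQuot_cokernel_desc {K : X.IdealSheafData} {P₁ P₀ G : X.Modules} (h₁ : Coh.IsQCoh P₁)
    (h₀ : Coh.IsCoh P₀) (hG : Coh.IsQCoh G) (hK : ClSub.KilledByIdeal K G) (φ : P₁ ⟶ P₀) (a : P₀ ⟶ G)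
    (w : φ ≫ a = 0)
    (h : ∀ x : X, ∃ V : X.affineOpens, x ∈ V.1 ∧ Function.Surjective (a.app V.1) ∧
      ∀ s, a.app V.1 s = 0 → ∃ t : Γ(P₁, V.1),
        s - φ.app V.1 t ∈ K.ideal V • (⊤ : Submodule Γ(X, V.1) Γ(P₀, V.1))) :
    IsKQuot K (cokernel.desc φ a w) := by
  have hE : Coh.IsCoh (cokernel φ) := Sga67.CohBasic.isCoh_cokernel φ h₁ h₀
  refine isKQuot_of_affine_cover hE.1 hG hK _ fun x => ?_
  obtain ⟨V, hx, hs, hk⟩ := h x
  have happ : ∀ s, (cokernel.desc φ a w).app V.1 ((cokernel.π φ).app V.1 s) = a.app V.1 s := fun s => by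
    have := congr(($(cokernel.π_desc φ a w)).app V.1 s)
    exact this
  refine ⟨V, hx, fun s => ?_, fun s hs0 => ?_⟩
  · obtain ⟨s', hs'⟩ := hs s
    exact ⟨(cokernel.π φ).app V.1 s', by rw [happ, hs']⟩
  · have : P₀.IsQuasicoherent := h₀.1
    have : (cokernel φ).IsQuasicoherent := hE.1
    obtain ⟨s, rfl⟩ := FormalB.QcSect.surjective_app_of_epi (cokernel.π φ) V.2 s
    rw [happ] at hs0
    obtain ⟨t, ht⟩ := hk s hs0
    have h2 := smul_top_map (K.ideal V) (appLin (cokernel.π φ) V.1) ht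
    have h3 : appLin (cokernel.π φ) V.1 (s - φ.app V.1 t) = (cokernel.π φ).app V.1 s := by
      have h4 : (cokernel.π φ).app V.1 (φ.app V.1 t) = 0 := by
        have := congr(($(cokernel.condition φ)).app V.1 t)
        exact this
      change (cokernel.π φ).app V.1 (s - φ.app V.1 t) = _
      rw [map_sub, h4, sub_zero]
    rwa [h3] at h2

/-! ### The invertible modules `O(-d)` -/

section Line

variable {I : Type} (D : CoordData X I)

/-- The transition functions `x_j / x_i`. -/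
noncomputable def tr (i j : I) : Γ(X, D.U i ⊓ D.U j) := ores inf_le_left (D.f i j)

lemma tr_eq {i j : I} {T : X.Opens} (hi : T ≤ D.U i) (hj : T ≤ D.U j) :
    ores (le_inf hi hj) (tr D i j) = ores hi (D.f i j) := by
  unfold tr
  rw [ores_ores]

lemma f_mul' (i j k : I) : ores (inf_le_left : D.U i ⊓ D.U j ≤ D.U i) (D.f i k) =
    ores inf_le_left (D.f i j) * ores inf_le_right (D.f j k) := D.f_mul i j k

lemma f_mul'' {i j : I} (k : I) {T : X.Opens} (hi : T ≤ D.U i) (hj : T ≤ D.U j) :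
    ores hi (D.f i k) = ores hi (D.f i j) * ores hj (D.f j k) := by
  have h := congrArg (ores (le_inf hi hj)) (f_mul' D i j k)
  rwa [map_mul, ores_ores, ores_ores, ores_ores] at h

/-- Existence of `O(-d)` with its local generators. -/
theorem exists_line (d : ℕ) : ∃ (L : X.Modules) (e : ∀ i, Γ(L, D.U i)), (∀ i, IsGen (e i)) ∧
    ∀ i j, res L inf_le_left (e i) = tr D i j ^ d • res L inf_le_right (e j) := by
  obtain ⟨L, e, he, h⟩ := Picfga.LineCocycle.exists_of_cocycle (ι := ULift.{u} I) (fun i => D.U i.down)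
    (fun i j => tr D i.down j.down ^ d)
    (fun i => by
      unfold tr
      rw [D.f_self, map_one, one_pow])
    (fun i j k T hi hj hk => by
      simp only [map_pow]
      rw [tr_eq D hi hk, tr_eq D hi hj, tr_eq D hj hk, ← mul_pow, ← f_mul'' D _ hi hj])
  exact ⟨L, fun i => e ⟨i⟩, fun i => he ⟨i⟩, fun i j => h ⟨i⟩ ⟨j⟩⟩

theorem isInvertible_of_gens {L : X.Modules} {e : ∀ i, Γ(L, D.U i)} (he : ∀ i, IsGen (e i)) :
    PicF.IsInvertible L := by
  rw [isInvertible_iff]
  intro x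
  have hx : x ∈ ⨆ i, D.U i := by rw [D.iSup_U]; trivial
  obtain ⟨i, hi⟩ := Opens.mem_iSup.1 hx
  exact ⟨D.U i, e i, hi, he i⟩

/-- Invertible modules are coherent. -/
theorem isCoh_of_isInvertible {L : X.Modules} (hL : PicF.IsInvertible L) : Coh.IsCoh L := by
  have hq : Coh.IsQCoh L := Ega2.QCohLocal.isQCoh_of_isInvertible hL
  refine ⟨hq, ?_⟩
  refine CohqB.FiniteType2.isFT_of_finite_sections _ fun x => ?_
  obtain ⟨V, e, hxV, he⟩ := (isInvertible_iff L).1 hL x
  obtain ⟨_, ⟨U, hU, rfl⟩, hx, hUV⟩ :=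
    X.isBasis_affineOpens.exists_subset_of_mem_open hxV V.isOpen
  refine ⟨U, hx, hU, ?_⟩
  have h : Function.Bijective (fun a : Γ(X, U) => a • res L hUV e) := he U hUV
  let e' : Γ(X, U) ≃ₗ[Γ(X, U)] Γ(L, U) :=
    LinearEquiv.ofBijective (LinearMap.toSpanSingleton _ _ (res L hUV e)) h
  exact Module.Finite.equiv e'

/-- Homomorphisms out of `O(-d)`. -/
theorem exists_hom {L N : X.Modules} {d : ℕ} {e : ∀ i, Γ(L, D.U i)} (he : ∀ i, IsGen (e i))
    (h : ∀ i j, res L inf_le_left (e i) = tr D i j ^ d • res L inf_le_right (e j))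
    (n : ∀ i, Γ(N, D.U i))
    (hn : ∀ i j, res N inf_le_left (n i) = tr D i j ^ d • res N inf_le_right (n j)) :
    ∃ φ : L ⟶ N, ∀ i, φ.app (D.U i) (e i) = n i := by
  refine Picfga.LineHom.exists_hom (U := D.U) (D.iSup_U) (e := e) he (n := n) ?_
  refine Picfga.LineHom.trans_of_inf he fun i j => ?_
  exact ⟨_, h i j, hn i j⟩

end Line

section Main

variable {I : Type} (D : CoordData X I)

attribute [local instance] Abelian.hasFiniteBiproducts

section Sum

variable {q : ℕ} (L : Fin q → X.Modules)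

/-- The finite direct sum. -/
noncomputable def dsum : X.Modules := biproduct L

/-- The inclusions. -/
noncomputable def inj (j : Fin q) : L j ⟶ dsum L := biproduct.ι L j

/-- The projections. -/
noncomputable def prj (j : Fin q) : dsum L ⟶ L j := biproduct.π L j

/-- Maps out of the sum. -/
noncomputable def descS {N : X.Modules} (a : ∀ j, L j ⟶ N) : dsum L ⟶ N := biproduct.desc a

lemma inj_descS {N : X.Modules} (a : ∀ j, L j ⟶ N) (j : Fin q) : inj L j ≫ descS L a = a j :=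
  biproduct.ι_desc _ _

lemma dsum_hom_ext {N : X.Modules} {a b : dsum L ⟶ N} (h : ∀ j, inj L j ≫ a = inj L j ≫ b) : a = b :=
  biproduct.hom_ext' _ _ h

lemma dsum_total : ∑ j, prj L j ≫ inj L j = 𝟙 (dsum L) := biproduct.total

lemma isCoh_dsum (h : ∀ j, Coh.IsCoh (L j)) : Coh.IsCoh (dsum L) := by
  change Coh.IsCoh (⨁ L)
  have hq : Coh.IsQCoh (⨁ L) := CohqA.HBiprod.isQCoh_biproduct L fun j => (h j).1
  refine ⟨hq, (CohqB.FiniteType2.isFT_iff_finite_sections _).2 fun U hU => ?_⟩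
  have : ∀ j, Module.Finite Γ(X, U) Γ(L j, U) := fun j => by
    have := (h j).1
    exact CohqB.FiniteType2.finite_sections_of_isFT _ (h j).2 hU
  let φ : (∀ j, Γ(L j, U)) →ₗ[Γ(X, U)] Γ(⨁ L, U) :=
    { toFun := fun z => ∑ j, (biproduct.ι L j).app U (z j)
      map_add' := fun z w => by
        simp only [Pi.add_apply, map_add, Finset.sum_add_distrib]
      map_smul' := fun c z => by
        simp only [Pi.smul_apply, Scheme.Modules.Hom.app_smul, Finset.smul_sum, RingHom.id_apply] }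
  refine Module.Finite.of_surjective φ fun x => ?_
  exact ⟨fun j => (biproduct.π L j).app U x, (CohqA.HBiprod.eq_sum L U x).symm⟩

/-- A section over `U i` of a finite direct sum of modules with generators. -/
theorem exists_coeff {V : X.Opens} (ε : ∀ j, Γ(L j, V)) (hε : ∀ j, IsGen (ε j))
    (s : Γ(dsum L, V)) : ∃ a : Fin q → Γ(X, V), s = ∑ j, a j • (inj L j).app V (ε j) := by
  have h1 : ∀ j, ∃ a : Γ(X, V), (prj L j).app V s = a • ε j := fun j => (hε j).exists_eq _
  choose a ha using h1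
  refine ⟨a, ?_⟩
  have h2 : s = ∑ j, (inj L j).app V ((prj L j).app V s) := by
    have h3 := congrArg (fun f : dsum L ⟶ dsum L => f.app V s) (dsum_total L)
    have h4 : (∑ j, prj L j ≫ inj L j).app V s =
        ∑ j, (prj L j ≫ inj L j).app V s := Ega4dA.Frame.sum_app _ _ _ _
    exact (h4.symm.trans h3).symm
  refine h2.trans ?_
  refine Finset.sum_congr rfl fun j _ => ?_
  rw [ha j, Scheme.Modules.Hom.app_smul]

end Sum

/-- **Sheafification of presentation data.** -/
theorem exists_sheafify (hU : ∀ i, IsAffineOpen (D.U i)) (J : X.IdealSheafData)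
    (x : ∀ i, Γ(X, D.U i)) (hJ : ∀ i, J.ideal ⟨D.U i, hU i⟩ = Ideal.span {x i})
    (G : ℕ → X.Modules) (hG : ∀ n, Coh.IsQCoh (G n)) (hK : ∀ n, ClSub.KilledByIdeal (J ^ (n + 1)) (G n))
    (t : ∀ n, G (n + 1) ⟶ G n) (q q' : ℕ) (d : Fin q → ℕ) (e : Fin q' → ℕ)
    (k : Fin q' → Fin q → ∀ i, Γ(X, D.U i))
    (hk : ∀ l j i i', tr D i i' ^ d j * ores inf_le_left (k l j i) =
      tr D i i' ^ e l * ores inf_le_right (k l j i'))
    (b : Fin q → ∀ n i, Γ(G n, D.U i))
    (hb : ∀ j n i i', res (G n) inf_le_left (b j n i) = tr D i i' ^ d j • res (G n) inf_le_right (b j n i'))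
    (hbt : ∀ j n i, (t n).app (D.U i) (b j (n + 1) i) = b j n i)
    (hsurj : ∀ n i (s : Γ(G n, D.U i)), ∃ a : Fin q → Γ(X, D.U i), s = ∑ j, a j • b j n i)
    (hrel : ∀ n i l, ∑ j, k l j i • b j n i = 0)
    (hker : ∀ n i (a : Fin q → Γ(X, D.U i)), ∑ j, a j • b j n i = 0 →
      ∃ (c : Fin q' → Γ(X, D.U i)) (a' : Fin q → Γ(X, D.U i)),
        ∀ j, a j = ∑ l, c l * k l j i + x i ^ (n + 1) * a' j) :
    ∃ (E : X.Modules) (p : ∀ n, E ⟶ G n), Coh.IsCoh E ∧ (∀ n, p (n + 1) ≫ t n = p n) ∧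
      ∀ n, IsKQuot (J ^ (n + 1)) (p n) := by
  choose L ε hε hεtr using exists_line D
  have hLc : ∀ d, Coh.IsCoh (L d) := fun d => isCoh_of_isInvertible (isInvertible_of_gens D (hε d))
  -- the two sums
  let P₀ : X.Modules := dsum fun j : Fin q => L (d j)
  let P₁ : X.Modules := dsum fun l : Fin q' => L (e l)
  -- the maps
  have hκ : ∀ l j, ∃ κ : L (e l) ⟶ L (d j), ∀ i, κ.app (D.U i) (ε (e l) i) = k l j i • ε (d j) i := by
    intro l j
    refine exists_hom D (hε (e l)) (hεtr (e l)) _ fun i i' => ?_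
    rw [res_smul, res_smul, hεtr (d j), smul_smul, smul_smul, mul_comm, hk]
  choose κ hκ using hκ
  have hα : ∀ j n, ∃ α : L (d j) ⟶ G n, ∀ i, α.app (D.U i) (ε (d j) i) = b j n i := fun j n =>
    exists_hom D (hε (d j)) (hεtr (d j)) _ (hb j n)
  choose α hα using hα
  let φ : P₁ ⟶ P₀ := descS _ fun l => ∑ j, κ l j ≫ inj (fun j => L (d j)) j
  let a : ∀ n, P₀ ⟶ G n := fun n => descS _ fun j => α j n
  have hφ : ∀ l i, φ.app (D.U i) ((inj (fun l => L (e l)) l).app (D.U i) (ε (e l) i)) =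
      ∑ j, k l j i • (inj (fun j => L (d j)) j).app (D.U i) (ε (d j) i) := by
    intro l i
    have h1 := congrArg (fun f : L (e l) ⟶ P₀ => f.app (D.U i) (ε (e l) i))
      (inj_descS (fun l => L (e l)) (fun l => ∑ j, κ l j ≫ inj (fun j => L (d j)) j) l)
    refine h1.trans ?_
    refine (Ega4dA.Frame.sum_app _ _ _ _).trans (Finset.sum_congr rfl fun j _ => ?_)
    change (inj (fun j => L (d j)) j).app (D.U i) ((κ l j).app (D.U i) (ε (e l) i)) = _
    rw [hκ, Scheme.Modules.Hom.app_smul]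
  have ha : ∀ n j i, (a n).app (D.U i) ((inj (fun j => L (d j)) j).app (D.U i) (ε (d j) i)) = b j n i := by
    intro n j i
    have h1 := congrArg (fun f : L (d j) ⟶ G n => f.app (D.U i) (ε (d j) i))
      (inj_descS (fun j => L (d j)) (fun j => α j n) j)
    exact h1.trans (hα j n i)
  have hhom : ∀ {q : ℕ} (d : Fin q → ℕ) {N : X.Modules} {f g : dsum (fun j => L (d j)) ⟶ N}
      (_ : ∀ j i, f.app (D.U i) ((inj (fun j => L (d j)) j).app (D.U i) (ε (d j) i)) =
        g.app (D.U i) ((inj (fun j => L (d j)) j).app (D.U i) (ε (d j) i))), f = g := by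
    intro q d N f g h
    refine dsum_hom_ext _ fun j => ?_
    exact Picfga.LineHom.hom_ext_of_isGen (U := D.U) D.iSup_U (hε (d j)) (h j)
  have hw : ∀ n, φ ≫ a n = 0 := by
    intro n
    refine hhom e fun l i => ?_
    change (a n).app (D.U i) (φ.app (D.U i) ((inj (fun l => L (e l)) l).app (D.U i) (ε (e l) i))) = _
    rw [hφ, map_sum]
    simp only [Scheme.Modules.Hom.app_smul, ha]
    exact hrel n i l
  have hat : ∀ n, a (n + 1) ≫ t n = a n := by
    intro n
    refine hhom d fun j i => ?_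
    change (t n).app (D.U i) ((a (n + 1)).app (D.U i) ((inj (fun j => L (d j)) j).app (D.U i) (ε (d j) i))) = _
    rw [ha, ha, hbt]
  refine ⟨cokernel φ, fun n => cokernel.desc φ (a n) (hw n), Sga67.CohBasic.isCoh_cokernel φ
    (isCoh_dsum _ fun l => hLc _).1 (isCoh_dsum _ fun j => hLc _), fun n => ?_, fun n => ?_⟩
  · rw [← cancel_epi (cokernel.π φ), cokernel.π_desc_assoc, cokernel.π_desc, hat]
  · refine isKQuot_cokernel_desc (isCoh_dsum _ fun l => hLc _).1 (isCoh_dsum _ fun j => hLc _) (hG n) (hK n) φ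
      (a n) (hw n) fun y => ?_
    have hy : y ∈ ⨆ i, D.U i := by rw [D.iSup_U]; trivial
    obtain ⟨i, hi⟩ := Opens.mem_iSup.1 hy
    refine ⟨⟨D.U i, hU i⟩, hi, fun s => ?_, fun s hs => ?_⟩
    · obtain ⟨c, rfl⟩ := hsurj n i s
      refine ⟨∑ j, c j • (inj (fun j => L (d j)) j).app (D.U i) (ε (d j) i), ?_⟩
      rw [map_sum]
      simp only [Scheme.Modules.Hom.app_smul, ha]
    · obtain ⟨c, rfl⟩ := exists_coeff (fun j => L (d j)) (fun j => ε (d j) i) (fun j => hε (d j) i) s
      rw [map_sum] at hs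
      simp only [Scheme.Modules.Hom.app_smul, ha] at hs
      obtain ⟨c', a', hc⟩ := hker n i c hs
      refine ⟨∑ l, c' l • (inj (fun l => L (e l)) l).app (D.U i) (ε (e l) i), ?_⟩
      have h1 : φ.app (D.U i) (∑ l, c' l • (inj (fun l => L (e l)) l).app (D.U i) (ε (e l) i)) =
          ∑ j, (∑ l, c' l * k l j i) • (inj (fun j => L (d j)) j).app (D.U i) (ε (d j) i) := by
        rw [map_sum]
        simp only [Scheme.Modules.Hom.app_smul, hφ, Finset.smul_sum, smul_smul, Finset.sum_smul]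
        exact Finset.sum_comm
      have h2 : (J ^ (n + 1)).ideal ⟨D.U i, hU i⟩ = Ideal.span {x i ^ (n + 1)} := by
        rw [Scheme.IdealSheafData.ideal_pow, Pi.pow_apply, hJ, Ideal.span_singleton_pow]
      change (∑ j, c j • (inj (fun j => L (d j)) j).app (D.U i) (ε (d j) i)) -
        φ.app (D.U i) (∑ l, c' l • (inj (fun l => L (e l)) l).app (D.U i) (ε (e l) i)) ∈
          (J ^ (n + 1)).ideal ⟨D.U i, hU i⟩ • (⊤ : Submodule Γ(X, D.U i) Γ(P₀, D.U i))
      rw [h1, ← Finset.sum_sub_distrib, h2]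
      refine Submodule.sum_mem _ fun j _ => ?_
      rw [← sub_smul, hc j, add_sub_cancel_left, mul_smul]
      exact Submodule.smul_mem_smul (Ideal.mem_span_singleton_self _) trivial

/-- The hypothesis `hk` for a matrix entry of degree `e - d ≥ 0`. -/
lemma hk_of_le {d e : ℕ} (h : d ≤ e) (k : ∀ i, Γ(X, D.U i))
    (hk : ∀ i i', ores inf_le_left (k i) = tr D i i' ^ (e - d) * ores inf_le_right (k i')) (i i' : I) :
    tr D i i' ^ d * ores inf_le_left (k i) = tr D i i' ^ e * ores inf_le_right (k i') := by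
  rw [hk, ← mul_assoc, ← pow_add, Nat.add_sub_cancel' h]

/-- The coordinate `x_k` is compatible of degree one. -/
lemma tr_mul_f (k i i' : I) :
    ores inf_le_left (D.f i k) = tr D i i' * ores inf_le_right (D.f i' k) := f_mul' D i i' k

/-- A polynomial expression of degree `m` is compatible of degree `m`: products. -/
lemma tr_mul {a b : ℕ} {i i' : I} {x y : Γ(X, D.U i)} {x' y' : Γ(X, D.U i')}
    (hx : ores inf_le_left x = tr D i i' ^ a * ores inf_le_right x')
    (hy : ores inf_le_left y = tr D i i' ^ b * ores inf_le_right y') :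
    ores inf_le_left (x * y) = tr D i i' ^ (a + b) * ores inf_le_right (x' * y') := by
  rw [map_mul, map_mul, hx, hy, pow_add]; ring

/-- `exists_sheafify` for the hyperplane section `x_k = 0`. -/
theorem exists_sheafify_hyper [Finite I] (hU : ∀ i, IsAffineOpen (D.U i)) [∀ i, QuasiCompact (D.U i).ι]
    (k₀ : I)
    (G : ℕ → X.Modules) (hG : ∀ n, Coh.IsQCoh (G n))
    (hK : ∀ n, ClSub.KilledByIdeal (Pi1C.LefSetup.hyper D hU k₀ ^ (n + 1)) (G n))
    (t : ∀ n, G (n + 1) ⟶ G n) (q q' : ℕ) (d : Fin q → ℕ) (e : Fin q' → ℕ)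
    (k : Fin q' → Fin q → ∀ i, Γ(X, D.U i))
    (hk : ∀ l j i i', tr D i i' ^ d j * ores inf_le_left (k l j i) =
      tr D i i' ^ e l * ores inf_le_right (k l j i'))
    (b : Fin q → ∀ n i, Γ(G n, D.U i))
    (hb : ∀ j n i i', res (G n) inf_le_left (b j n i) = tr D i i' ^ d j • res (G n) inf_le_right (b j n i'))
    (hbt : ∀ j n i, (t n).app (D.U i) (b j (n + 1) i) = b j n i)
    (hsurj : ∀ n i (s : Γ(G n, D.U i)), ∃ a : Fin q → Γ(X, D.U i), s = ∑ j, a j • b j n i)
    (hrel : ∀ n i l, ∑ j, k l j i • b j n i = 0)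
    (hker : ∀ n i (a : Fin q → Γ(X, D.U i)), ∑ j, a j • b j n i = 0 →
      ∃ (c : Fin q' → Γ(X, D.U i)) (a' : Fin q → Γ(X, D.U i)),
        ∀ j, a j = ∑ l, c l * k l j i + D.f i k₀ ^ (n + 1) * a' j) :
    ∃ (E : X.Modules) (p : ∀ n, E ⟶ G n), Coh.IsCoh E ∧ (∀ n, p (n + 1) ≫ t n = p n) ∧
      ∀ n, IsKQuot (Pi1C.LefSetup.hyper D hU k₀ ^ (n + 1)) (p n) :=
  exists_sheafify D hU _ (fun i => D.f i k₀) (Pi1C.LefSetup.hyper_ideal D hU k₀) G hG hK t q q' d e k hk b
    hb hbt hsurj hrel hker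

end Main

end Groth.Agent.Lefx.H80.Sheafify
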